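import Mathlib
set_option linter.all false

/-!
Closures of affine permutation groups: a permutation of a vector space over `ZMod p`, `p` odd,
which agrees on every triple of points with some affine map, is affine; transitivity of the
general linear group on linearly independent families.
-/

set_option autoImplicit false

namespace Cfsg.Agent.H386.AffineClosure

theorem zmod_two_cases : ∀ x : ZMod 2, x = 0 ∨ x = 1 := by decide

theorem plane_two_cases : ∀ x : Fin 2 → ZMod 2,
    x = ![0, 0] ∨ x = ![0, 1] ∨ x = ![1, 0] ∨ x = ![1, 1] := by decide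

theorem plane_two_ne : (![0, 0] : Fin 2 → ZMod 2) ≠ ![1, 1] ∧
    (![0, 1] : Fin 2 → ZMod 2) ≠ ![1, 1] ∧ (![1, 0] : Fin 2 → ZMod 2) ≠ ![1, 1] := by decide

/-- The general linear group is transitive on linearly independent families. -/
theorem exists_linearEquiv_map {K V ι : Type*} [Field K] [AddCommGroup V] [Module K V] [Finite ι]
    {v w : ι → V} (hv : LinearIndependent K v) (hw : LinearIndependent K w) :
    ∃ g : V ≃ₗ[K] V, ∀ i, g (v i) = w i := by
  classical
  let f := hv.linearCombinationEquiv.symm ≪≫ₗ hw.linearCombinationEquiv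
  have : FiniteDimensional K (Submodule.span K (Set.range v)) :=
    FiniteDimensional.span_of_finite K (Set.finite_range _)
  obtain ⟨g, hg⟩ := Submodule.exists_linearEquiv_restrict_eq f
  refine ⟨g, fun i => ?_⟩
  have h1 : (hv.linearCombinationEquiv (Finsupp.single i 1) : V) = v i := by simp
  have h2 : (hw.linearCombinationEquiv (Finsupp.single i 1) : V) = w i := by simp
  rw [← h1, ← hg, ← h2]
  simp [f]

/-- A permutation of a vector space over `ZMod p`, `p ≠ 2`, which agrees on every triple of
points with some affine map is affine. -/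
theorem affine_of_triples {p : ℕ} [Fact p.Prime] (hp : p ≠ 2) {V : Type*} [AddCommGroup V]
    [Module (ZMod p) V] (σ : Equiv.Perm V)
    (h : ∀ t : Fin 3 → V, ∃ (A : V ≃ₗ[ZMod p] V) (b : V), ∀ i, σ (t i) = A (t i) + b) :
    ∃ (A : V ≃ₗ[ZMod p] V) (b : V), ∀ x, σ x = A x + b := by
  have h2 : (2 : ZMod p) ≠ 0 := by
    intro h0
    have h1 : ((2 : ℕ) : ZMod p) = 0 := by exact_mod_cast h0
    rw [ZMod.natCast_eq_zero_iff] at h1
    exact hp ((Nat.prime_dvd_prime_iff_eq Fact.out Nat.prime_two).1 h1)
  -- ratio on lines
  have key : ∀ (x y : V) (c : ZMod p), σ (x + c • (y - x)) = σ x + c • (σ y - σ x) := by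
    intro x y c
    obtain ⟨A, b, hA⟩ := h ![x, y, x + c • (y - x)]
    have e0 : σ x = A x + b := by simpa using hA 0
    have e1 : σ y = A y + b := by simpa using hA 1
    have e2 : σ (x + c • (y - x)) = A (x + c • (y - x)) + b := by simpa using hA 2
    rw [e0, e1, e2, map_add, map_smul, map_sub]
    module
  let τ : V → V := fun x => σ x - σ 0
  have hsmul : ∀ (c : ZMod p) (x : V), τ (c • x) = c • τ x := by
    intro c x
    have := key 0 x c
    simp only [sub_zero, zero_add] at this
    simp only [τ, this, add_sub_cancel_left]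
  have hadd : ∀ x y : V, τ (x + y) = τ x + τ y := by
    intro x y
    have h3 := key x y (2⁻¹)
    have h4 : x + y = (2 : ZMod p) • (x + (2⁻¹ : ZMod p) • (y - x)) := by
      rw [smul_add, smul_smul, mul_inv_cancel₀ h2, one_smul, two_smul]
      abel
    rw [h4, hsmul]
    simp only [τ, h3]
    rw [smul_sub, smul_add, smul_smul, mul_inv_cancel₀ h2, one_smul, two_smul, two_smul]
    abel
  let L : V →ₗ[ZMod p] V :=
    { toFun := τ
      map_add' := hadd
      map_smul' := hsmul }
  have hbij : Function.Bijective L := by
    constructor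
    · intro x y hxy
      have : σ x - σ 0 = σ y - σ 0 := hxy
      exact σ.injective (sub_left_injective this)
    · intro y
      refine ⟨σ.symm (y + σ 0), ?_⟩
      change σ (σ.symm (y + σ 0)) - σ 0 = y
      rw [Equiv.apply_symm_apply, add_sub_cancel_right]
  refine ⟨LinearEquiv.ofBijective L hbij, σ 0, fun x => ?_⟩
  change σ x = (σ x - σ 0) + σ 0
  rw [sub_add_cancel]

end Cfsg.Agent.H386.AffineClosure
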